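import Mathlib
import Cfsg.Prelude.Def_Blocks
import Cfsg.Prelude.Def_Solvable
import Cfsg.Agent.Lib.H20.PPart
import Cfsg.Agent.Lib.H20.PC
import Cfsg.Agent.Lib.H20.Height
import Cfsg.Agent.Lib.H77.RegGen
import Cfsg.Agent.S0912
import Cfsg.Agent.S0943

/-! Central `p`-subgroups and characters of degree with `p`-part `|G : D|_p` (S0969). -/

set_option autoImplicit false
set_option linter.unusedSectionVars false
set_option linter.unusedVariables false
set_option linter.style.haveILetI false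
open Cfsg H20.Loc H20.GA H20.Blk H20.DefGrp H20.Defect H20.Orth H20.Height H20.PPart
open scoped ComplexConjugate

universe u

namespace H20.CentD

variable {G : Type u} [Group G] [Finite G]
variable {M : Ideal AlgInt} {p : ℕ}

theorem mul_central (χ : IrrCharacter G) {z : G} (hz : z ∈ Subgroup.center G) (x : G) :
    (χ : G → ℂ) z * (χ : G → ℂ) x = (χ : G → ℂ) 1 * (χ : G → ℂ) (z * x) := by
  apply Cfsg.Agent.S0943.result
  intro a b ha hb
  obtain ⟨c, rfl⟩ := isConj_iff.1 ha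
  obtain ⟨d, rfl⟩ := isConj_iff.1 hb
  have h1 : c * z * c⁻¹ = z := by
    rw [Subgroup.mem_center_iff.1 hz c]; group
  rw [h1]
  have h2 : z * (d * x * d⁻¹) = d * (z * x) * d⁻¹ := by
    have := Subgroup.mem_center_iff.1 hz d
    rw [← mul_assoc, ← mul_assoc, ← this]; group
  rw [h2]
  exact irr_class χ _ _

theorem norm_central (χ : IrrCharacter G) {z : G} (hz : z ∈ Subgroup.center G) :
    ‖(χ : G → ℂ) z‖ = ‖(χ : G → ℂ) 1‖ := by
  have h1 := mul_central χ hz z⁻¹
  rw [mul_inv_cancel, H18.CharBasic.char_inv (irr_char χ)] at h1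
  have h2 := congrArg norm h1
  rw [norm_mul, norm_mul, Complex.norm_conj] at h2
  have h3 : ‖(χ : G → ℂ) z‖ ^ 2 = ‖(χ : G → ℂ) 1‖ ^ 2 := by nlinarith
  exact (pow_left_inj₀ (norm_nonneg _) (norm_nonneg _) two_ne_zero).1 h3

theorem norm_mul_central (χ : IrrCharacter G) {z : G} (hz : z ∈ Subgroup.center G) (x : G) :
    ‖(χ : G → ℂ) (z * x)‖ = ‖(χ : G → ℂ) x‖ := by
  have h1 := congrArg norm (mul_central χ hz x)
  rw [norm_mul, norm_mul, norm_central χ hz] at h1
  have h2 : ‖(χ : G → ℂ) 1‖ ≠ 0 := by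
    rw [norm_ne_zero_iff]; exact H18.CharBasic.irr_one_ne_zero χ.2
  exact (mul_left_cancel₀ h2 h1).symm

theorem sum_norm_sq [Fintype G] (χ : IrrCharacter G) :
    ∑ g : G, ‖(χ : G → ℂ) g‖ ^ 2 = (Nat.card G : ℝ) := by
  have h1 := H18.CharOrtho.inner_irr_self χ.2
  rw [classInner] at h1
  have hG : (Nat.card G : ℂ) ≠ 0 := by exact_mod_cast (Nat.card_pos (α := G)).ne'
  rw [inv_mul_eq_iff_eq_mul₀ hG, mul_one] at h1
  apply Complex.ofReal_injective
  rw [Complex.ofReal_sum, Complex.ofReal_natCast, ← h1]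
  refine Finset.sum_congr rfl fun g _ => ?_
  rw [Complex.mul_conj', Complex.ofReal_pow]

theorem central_main (hM : IsPModular p M) {D : Subgroup G} (hD : IsPGroup p D)
    (hDZ : D ≤ Subgroup.center G) (χ : IrrCharacter G)
    (hdeg : (charDegree (χ : G → ℂ)).factorization p = D.index.factorization p) :
    IsDefectGroup p M (blockOf M (χ : G → ℂ)) D ∧
      ∀ g x : G, IsPPart p g x → x ∉ D → (χ : G → ℂ) g = 0 := by
  classical
  haveI := pm_isPrime hM
  haveI hpF : Fact p.Prime := ⟨pm_prime hM⟩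
  have hp := pm_prime hM
  letI := Fintype.ofFinite G
  set a := (Nat.card G).factorization p with ha
  obtain ⟨δ, hδ⟩ := IsPGroup.iff_card.1 hD
  have hG0 : Nat.card G ≠ 0 := Nat.card_pos.ne'
  have hcd : Nat.card G = p ^ δ * D.index := by rw [← hδ, Subgroup.card_mul_index]
  have hidx0 : D.index ≠ 0 := Subgroup.index_ne_zero_of_finite
  have hv : D.index.factorization p + δ = a := by
    rw [ha, hcd, Nat.factorization_mul (pow_ne_zero _ hp.ne_zero) hidx0, Nat.factorization_pow,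
      Finsupp.add_apply, Finsupp.smul_apply, hp.factorization_self, smul_eq_mul, mul_one, add_comm]
  set j := D.index.factorization p with hj
  set d := charDegree (χ : G → ℂ) with hd
  have hd0 : d ≠ 0 := charDegree_ne_zero χ
  set c := d / p ^ j with hc
  have hdc : p ^ j * c = d := by
    rw [hc, ← hdeg]; exact Nat.ordProj_mul_ordCompl_eq_self d p
  have hpc : ¬ p ∣ c := by rw [hc, ← hdeg]; exact Nat.not_dvd_ordCompl hp hd0
  set r := Nat.card G / p ^ a with hr
  have hGr : p ^ a * r = Nat.card G := Nat.ordProj_mul_ordCompl_eq_self _ _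
  have hpr : ¬ p ∣ r := Nat.not_dvd_ordCompl hp hG0
  have hc0 : (c : ℂ) ≠ 0 := by
    intro h; apply hpc; have : c = 0 := by exact_mod_cast h
    rw [this]; exact dvd_zero p
  have hr0 : (r : ℂ) ≠ 0 := by
    intro h; apply hpr; have : r = 0 := by exact_mod_cast h
    rw [this]; exact dvd_zero p
  have hp0 : (p : ℂ) ≠ 0 := by exact_mod_cast hp.ne_zero
  -- the integer n
  obtain ⟨n, hn⟩ := H77.RegGen.inner_reg_int hp (irr_char χ) (irr_char χ)
  rw [← ha] at hn
  have hQ := Q_memR (M := M) (p := p) χ (irr_class χ) (irr_int χ)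
  have hQeq : Q p χ (χ : G → ℂ) (irr_class χ) = (r : ℂ) * (n : ℂ) / ((p : ℂ) ^ j * (c : ℂ)) := by
    rw [Q_eq, ← charDegree_irr χ, ← hd, ← hdc, ← hGr]
    push_cast
    rw [← hn]
    field_simp
  have hdvd : (p : ℤ) ^ j ∣ n := by
    apply dvd_of_div_mem hM
    have h1 : (n : ℂ) / (p : ℂ) ^ j = Q p χ (χ : G → ℂ) (irr_class χ) * (c : ℂ) * (r : ℂ)⁻¹ := by
      rw [hQeq]; field_simp
    rw [h1]
    exact locR_mul (locR_mul hQ (locR_natCast c)) (locR_natCast_inv hM hpr)
  -- real form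
  set T : ℝ := ∑ x : {x : G // ¬ p ∣ orderOf x}, ‖(χ : G → ℂ) x‖ ^ 2 with hT
  have hTn : (p : ℝ) ^ a * T = (Nat.card G : ℝ) * n := by
    apply Complex.ofReal_injective
    push_cast
    rw [← hn, classInner]
    have hG : (Nat.card G : ℂ) ≠ 0 := by exact_mod_cast hG0
    have h2 : ∑ g : G, reg p (χ : G → ℂ) g * conj ((χ : G → ℂ) g) = (T : ℂ) := by
      rw [hT, Complex.ofReal_sum]
      symm
      apply Fintype.sum_of_injective (Subtype.val : {x : G // ¬ p ∣ orderOf x} → G)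
        Subtype.val_injective
      · intro g hg
        rw [reg_not, zero_mul]
        by_contra hno
        exact hg ⟨⟨g, hno⟩, rfl⟩
      · intro x
        rw [reg_of x.2, Complex.mul_conj', Complex.ofReal_pow]
    rw [h2]
    field_simp
  have hTpos : 0 < T := by
    apply Finset.sum_pos'
    · intro i _; positivity
    · refine ⟨⟨1, ?_⟩, Finset.mem_univ _, ?_⟩
      · rw [orderOf_one]; exact fun h => hp.one_lt.ne' (Nat.dvd_one.1 h)
      · have : (χ : G → ℂ) 1 ≠ 0 := H18.CharBasic.irr_one_ne_zero χ.2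
        have := norm_pos_iff.2 this
        positivity
  have hGpos : (0 : ℝ) < Nat.card G := by exact_mod_cast Nat.card_pos
  have hppos : (0 : ℝ) < p := by exact_mod_cast hp.pos
  have hnpos : (0 : ℤ) < n := by
    have h1 : (0 : ℝ) < (Nat.card G : ℝ) * n := by rw [← hTn]; positivity
    have h2 : (0 : ℝ) < n := (mul_pos_iff_of_pos_left hGpos).1 h1
    exact_mod_cast h2
  have hnge : (p : ℤ) ^ j ≤ n := Int.le_of_dvd hnpos hdvd
  -- the section
  let E : D × {x : G // ¬ p ∣ orderOf x} → G := fun t => (t.1 : G) * (t.2 : G)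
  have hpelt : ∀ z : D, ∃ k : ℕ, orderOf (z : G) = p ^ k := by
    intro z
    obtain ⟨k, hk⟩ := IsPGroup.iff_orderOf.1 hD z
    exact ⟨k, by rw [Subgroup.orderOf_coe, hk]⟩
  have hEpart : ∀ t, IsPPart p (E t) t.1 := by
    intro t
    exact ⟨t.2, rfl, (Subgroup.mem_center_iff.1 (hDZ t.1.2) _).symm, hpelt t.1, t.2.2⟩
  have hEinj : Function.Injective E := by
    intro s t hst
    have h1 := hEpart s
    rw [hst] at h1
    have h2 : (s.1 : G) = t.1 := H19.Second.isPPart_unique hp h1 (hEpart t)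
    have h3 : (s.2 : G) = t.2 := by
      have h4 : (s.1 : G) * (s.2 : G) = (t.1 : G) * (t.2 : G) := hst
      rw [h2] at h4
      exact mul_left_cancel h4
    exact Prod.ext (Subtype.ext h2) (Subtype.ext h3)
  set I : Finset G := Finset.univ.image E with hI
  have hsumI : ∑ g ∈ I, ‖(χ : G → ℂ) g‖ ^ 2 = (Nat.card D : ℝ) * T := by
    rw [hI, Finset.sum_image (fun x _ y _ h => hEinj h), Fintype.sum_prod_type]
    have h1 : ∀ z : D, ∑ y : {x : G // ¬ p ∣ orderOf x}, ‖(χ : G → ℂ) (E (z, y))‖ ^ 2 = T := by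
      intro z
      refine Finset.sum_congr rfl fun y _ => ?_
      show ‖(χ : G → ℂ) ((z : G) * (y : G))‖ ^ 2 = _
      rw [norm_mul_central χ (hDZ z.2)]
    rw [Finset.sum_congr rfl fun z _ => h1 z, Finset.sum_const, Finset.card_univ, nsmul_eq_mul,
      Nat.card_eq_fintype_card]
  have hsplit : ∑ g ∈ I, ‖(χ : G → ℂ) g‖ ^ 2 + ∑ g ∈ Iᶜ, ‖(χ : G → ℂ) g‖ ^ 2 = (Nat.card G : ℝ) := by
    rw [Finset.sum_add_sum_compl, sum_norm_sq]
  have hδr : (Nat.card D : ℝ) * (p : ℝ) ^ j = (p : ℝ) ^ a := by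
    rw [hδ, ← hv]; push_cast; rw [pow_add]; ring
  have hIn : (p : ℝ) ^ j * ∑ g ∈ I, ‖(χ : G → ℂ) g‖ ^ 2 = (Nat.card G : ℝ) * n := by
    rw [hsumI, ← hTn, ← hδr]; ring
  have hcnonneg : 0 ≤ ∑ g ∈ Iᶜ, ‖(χ : G → ℂ) g‖ ^ 2 :=
    Finset.sum_nonneg fun g _ => by positivity
  have hnr : (p : ℝ) ^ j ≤ n := by exact_mod_cast hnge
  have hpj : (0 : ℝ) < (p : ℝ) ^ j := by positivity
  have hcompl : ∑ g ∈ Iᶜ, ‖(χ : G → ℂ) g‖ ^ 2 = 0 := by
    have h1 : (p : ℝ) ^ j * ∑ g ∈ Iᶜ, ‖(χ : G → ℂ) g‖ ^ 2 = (Nat.card G : ℝ) * ((p : ℝ) ^ j - n) := by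
      have := congrArg (fun t => (p : ℝ) ^ j * t) hsplit
      simp only [mul_add] at this
      rw [hIn] at this
      linarith
    have h2 : (Nat.card G : ℝ) * ((p : ℝ) ^ j - n) ≤ 0 := by nlinarith
    nlinarith
  have hneq : n = (p : ℤ) ^ j := by
    have h1 : (p : ℝ) ^ j * (Nat.card G : ℝ) = (Nat.card G : ℝ) * n := by
      rw [← hIn]
      congr 1
      linarith
    have h2 : (p : ℝ) ^ j = n := by
      have h3 : (Nat.card G : ℝ) * (p : ℝ) ^ j = (Nat.card G : ℝ) * n := by linarith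
      exact mul_left_cancel₀ hGpos.ne' h3
    exact_mod_cast h2.symm
  refine ⟨?_, ?_⟩
  · -- defect group
    set B := blockOf M (χ : G → ℂ) with hBdef
    have hB : IsPBlock M B := isPBlock_blockOf χ
    have hχB : χ ∈ B := mem_blockOf_self χ
    have hQu : ¬ MemLocalIdeal M (Q p χ (χ : G → ℂ) (irr_class χ)) := by
      intro h
      have h1 : (r : ℂ) = (c : ℂ) * Q p χ (χ : G → ℂ) (irr_class χ) := by
        rw [hQeq, hneq]
        push_cast
        field_simp
      have h2 := locI_mul_left (locR_natCast (M := M) c) h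
      rw [← h1] at h2
      exact hpr ((locI_natCast_iff hM).1 h2)
    have h0 := ((Q_unit_iff hM hB hχB χ).1 hQu).2
    have h1 := (height_zero_iff hM hB hχB).1 h0
    obtain ⟨F, hF⟩ := exists_isDefectGroup hM hB
    have h2 : D ≤ F := by
      have hn : D.Normal := ⟨fun x hx g => by
        rw [Subgroup.mem_center_iff.1 (hDZ hx) g, mul_inv_cancel_right]
        exact hx⟩
      have h3 : D ≤ pCore p G := le_sSup ⟨hn, hD⟩
      exact h3.trans (Cfsg.Agent.S0912.result p M hM B hB F hF)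
    have h3 := card_defectGroup hM hB hF
    have h1' : d.factorization p + blockDefect p B = a := h1
    have h4 : blockDefect p B = δ := by omega
    rw [h4, ← hδ] at h3
    have h5 : D = F := Subgroup.eq_of_le_of_card_ge h2 h3.le
    rw [h5]
    exact hF
  · intro g x hx hxD
    have hgI : g ∈ Iᶜ := by
      rw [Finset.mem_compl]
      intro hgI
      obtain ⟨t, _, rfl⟩ := Finset.mem_image.1 hgI
      apply hxD
      rw [H19.Second.isPPart_unique hp hx (hEpart t)]
      exact t.1.2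
    have h1 := (Finset.sum_eq_zero_iff_of_nonneg (fun g _ => by positivity)).1 hcompl g hgI
    have h2 : ‖(χ : G → ℂ) g‖ = 0 := by
      exact pow_eq_zero_iff (two_ne_zero) |>.1 h1
    exact norm_eq_zero.1 h2

end H20.CentD
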