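import Mathlib
import Cfsg.Agent.Lib.H20.Cor6

/-!
# Blocks whose characters have the same degree
-/

set_option autoImplicit false
set_option linter.unusedSectionVars false
set_option linter.unusedVariables false
set_option linter.style.haveILetI false

open Module
open Cfsg H20.Loc H20.GA H20.Blk H20.Orth H20.Defect H80.GA H80.GB H80.BR1 H84.RG H84.Star H18.CharBasic H18.CharOrtho
open H80.GC H80.GD H80.GE H80.GF H80.GJ H80.BR2
open scoped ComplexConjugate

universe u

namespace H20.Cor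

open H20.BrT H20.LSA

variable {M : Ideal AlgInt} [M.IsMaximal] {G : Type u} [Group G] [Finite G] {p : ℕ}

theorem eq_zero_of_evA {a : MonoidAlgebra ℂ G} (ha : IsIdempotentElem a)
    (h : ∀ χ : IrrCharacter G, evA (χ : G → ℂ) a = 0) : a = 0 := by
  letI := Fintype.ofFinite (IrrCharacter G)
  have h1 := H20.BrT.finrank_corner ha
  have h0 : ∑ χ : IrrCharacter G, evA (χ : G → ℂ) a ^ 2 = 0 :=
    Finset.sum_eq_zero (fun χ _ => by rw [h χ]; simp)
  rw [h0] at h1
  have h2 : finrank ℂ (LinearMap.range (cmap ℂ a)) = 0 := by exact_mod_cast h1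
  haveI : FiniteDimensional ℂ (MonoidAlgebra ℂ G) := inferInstance
  have h3 := Submodule.finrank_eq_zero.1 h2
  have h4 : a ∈ LinearMap.range (cmap ℂ a) := (mem_range_cmap (k := ℂ) ha).2 (by rw [ha.eq, ha.eq])
  rw [h3] at h4
  exact (Submodule.mem_bot _).1 h4

/-- an idempotent of the complex group algebra whose character values are full or zero is central -/
theorem eq_toA_of_evA {a : MonoidAlgebra ℂ G} (ha : IsIdempotentElem a) {S : Set (IrrCharacter G)}
    (h1 : ∀ χ ∈ S, evA (χ : G → ℂ) a = (χ : G → ℂ) 1) (h0 : ∀ χ, χ ∉ S → evA (χ : G → ℂ) a = 0) :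
    a = toA (eB S) := by
  have hc := fun x => toA_comm (eB S) x
  have he : toA (eB S) * toA (eB S) = toA (eB S) := by
    rw [← map_mul, eB_mul_eB_self]
  have e1 : toA (eB S) * (1 - a) = 0 := by
    apply eq_zero_of_evA
    · unfold IsIdempotentElem
      have h2 : (1 - a) * (1 - a) = 1 - a := ha.one_sub.eq
      rw [mul_assoc, ← mul_assoc (1 - a), ← hc (1 - a), mul_assoc (toA (eB S)) (1 - a) (1 - a), h2, ← mul_assoc, he]
    · intro χ
      rw [evA_central_mul']
      by_cases hχ : χ ∈ S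
      · rw [map_sub, h1 χ hχ, evA_one, sub_self, mul_zero]
      · rw [omega_eB_notMem hχ, zero_mul]
  have e2 : a * (1 - toA (eB S)) = 0 := by
    have hc' : a * (1 - toA (eB S)) = (1 - toA (eB S)) * a := by
      rw [mul_sub, sub_mul, mul_one, one_mul, hc]
    have he' : (1 - toA (eB S)) * (1 - toA (eB S)) = 1 - toA (eB S) := by
      have : IsIdempotentElem (toA (eB S)) := he
      exact this.one_sub.eq
    apply eq_zero_of_evA
    · unfold IsIdempotentElem
      rw [mul_assoc a, ← mul_assoc _ a, ← hc', mul_assoc a _ (1 - toA (eB S)), he', ← mul_assoc, ha.eq]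
    · intro χ
      have h3 : a * (1 - toA (eB S)) = a - toA (eB S) * a := by rw [mul_sub, mul_one, hc]
      rw [h3, map_sub, evA_central_mul']
      by_cases hχ : χ ∈ S
      · rw [omega_eB_mem hχ, one_mul, sub_self]
      · rw [omega_eB_notMem hχ, zero_mul, sub_zero, h0 χ hχ]
  rw [mul_sub, mul_one, sub_eq_zero] at e1 e2
  calc a = a * toA (eB S) := e2
    _ = toA (eB S) * a := (hc a).symm
    _ = toA (eB S) := e1.symm

section eqdeg

variable (D : Dat (ResF M) (KG M G)) (hM : IsPModular p M)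
include hM

omit hM in
theorem exists_full (i : Fin D.n) : ∃ f : KG M G, IsIdempotentElem f ∧ D.π f = Pi.single i 1 := by
  classical
  let ρ : KG M G →+* ((i : Fin D.n) → Matrix (Fin (D.d i)) (Fin (D.d i)) (ResF M)) := D.π.toRingHom
  have h1 : IsIdempotentElem (Pi.single i (1 : Matrix (Fin (D.d i)) (Fin (D.d i)) (ResF M)) :
      (i : Fin D.n) → Matrix (Fin (D.d i)) (Fin (D.d i)) (ResF M)) := by
    unfold IsIdempotentElem
    rw [← Pi.single_mul, one_mul]
  have h2 : (Pi.single i (1 : Matrix (Fin (D.d i)) (Fin (D.d i)) (ResF M)) :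
      (i : Fin D.n) → Matrix (Fin (D.d i)) (Fin (D.d i)) (ResF M)) ∈ ρ.range := by
    obtain ⟨y, hy⟩ := D.surj (Pi.single i 1)
    exact ⟨y, hy⟩
  have h3 : ∀ x ∈ RingHom.ker ρ, IsNilpotent x := fun x hx => D.nil x hx
  obtain ⟨f, hf, hfπ⟩ := exists_isIdempotentElem_eq_of_ker_isNilpotent ρ h3 _ h2 h1
  exact ⟨f, hf, hfπ⟩

omit hM in
theorem rk_full {f : KG M G} {i : Fin D.n} (hf : D.π f = Pi.single i 1) (j : Fin D.n) :
    D.rk f j = if j = i then D.d i else 0 := by
  unfold Dat.rk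
  rw [hf]
  split_ifs with h
  · subst h
    rw [Pi.single_eq_same, Matrix.rank_one, Fintype.card_fin]
  · rw [Pi.single_eq_of_ne h, Matrix.rank_zero]

theorem single_of_deg {B : Set (IrrCharacter G)} (hB : IsPBlock M B) {n : ℕ}
    (hn : ∀ χ ∈ B, charDegree (χ : G → ℂ) = n) {i : Fin D.n} (hi : InB D B i) : D.d i = n := by
  have h1 := dvd_d D hM hB (g := n) (fun χ hχ => by rw [hn χ hχ]) hi
  obtain ⟨χ, hχ, h2⟩ := exists_dec_pos D hM hB hi
  have h3 := deg_eq D hM χ
  rw [hn χ hχ] at h3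
  have h4 : D.d i ≤ n := by
    rw [h3]
    calc D.d i ≤ dec D hM χ i * D.d i := Nat.le_mul_of_pos_left _ h2
      _ ≤ ∑ j, dec D hM χ j * D.d j :=
        Finset.single_le_sum (f := fun j => dec D hM χ j * D.d j) (fun j _ => Nat.zero_le _) (Finset.mem_univ i)
  exact le_antisymm h4 (Nat.le_of_dvd (d_pos D i) h1)

theorem sum_dec_one {B : Set (IrrCharacter G)} (hB : IsPBlock M B) {n : ℕ}
    (hn : ∀ χ ∈ B, charDegree (χ : G → ℂ) = n) {χ : IrrCharacter G} (hχ : χ ∈ B) : ∑ j, dec D hM χ j = 1 := by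
  classical
  have h3 := deg_eq D hM χ
  rw [hn χ hχ] at h3
  have hn0 : 0 < n := by
    rw [← hn χ hχ]
    exact Nat.pos_of_ne_zero (charDegree_ne_zero χ)
  have h4 : ∑ j, dec D hM χ j * D.d j = (∑ j, dec D hM χ j) * n := by
    rw [Finset.sum_mul]
    refine Finset.sum_congr rfl fun j _ => ?_
    by_cases hj : InB D B j
    · rw [single_of_deg D hM hB hn hj]
    · rw [dec_of_not D hM hB hχ hj, zero_mul, zero_mul]
  rw [h4] at h3
  nlinarith

theorem union_of_deg {B : Set (IrrCharacter G)} (hB : IsPBlock M B) {n : ℕ}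
    (hn : ∀ χ ∈ B, charDegree (χ : G → ℂ) = n) {i : Fin D.n} (hi : InB D B i) :
    IsUnion M {χ : IrrCharacter G | dec D hM χ i ≠ 0} := by
  classical
  obtain ⟨f, hf, hfπ'⟩ := exists_full D i
  obtain ⟨ε, hε, hεf⟩ := exists_lift hM hf
  have hin : ∀ {χ : IrrCharacter G}, dec D hM χ i ≠ 0 → χ ∈ B := by
    intro χ h
    by_contra hχ
    exact h (dec_of_notMem D hM hB hχ hi)
  have hev : ∀ χ : IrrCharacter G, evA (χ : G → ℂ) (iC M G ε) = ((dec D hM χ i * D.d i : ℕ) : ℂ) := by
    intro χ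
    have hcl := isClassFunction_of_isIrr χ.2
    rw [← val_lift hM hcl hε, hεf, val_eq_sum D hM hcl hf]
    rw [Finset.sum_eq_single i]
    · rw [rk_full D hfπ' i, if_pos rfl, dec_spec D hM]
      push_cast
      ring
    · intro j _ hj
      rw [rk_full D hfπ' j, if_neg hj]
      simp
    · intro h
      exact absurd (Finset.mem_univ _) h
  have hεC : IsIdempotentElem (iC M G ε) := hε.map (iC M G)
  have key : iC M G ε = toA (eB {χ : IrrCharacter G | dec D hM χ i ≠ 0}) := by
    apply eq_toA_of_evA hεC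
    · intro χ hχ
      have hχB := hin hχ
      have h1 := sum_dec_one D hM hB hn hχB
      have h2 : dec D hM χ i ≤ 1 := by
        rw [← h1]
        exact Finset.single_le_sum (f := fun j => dec D hM χ j) (fun j _ => Nat.zero_le _) (Finset.mem_univ i)
      have h3 : dec D hM χ i = 1 := by
        have : dec D hM χ i ≠ 0 := hχ
        omega
      rw [hev, h3, one_mul, single_of_deg D hM hB hn hi, ← hn χ hχB, charDegree_irr]
    · intro χ hχ
      have : dec D hM χ i = 0 := not_not.1 hχ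
      rw [hev, this, zero_mul, Nat.cast_zero]
  apply isUnion_of_eB_mem
  intro g
  have h4 : (iC M G ε).coeff g = (toA (eB {χ : IrrCharacter G | dec D hM χ i ≠ 0})).coeff g := by rw [key]
  have h5 : (iC M G ε).coeff g = ((ε.coeff g : locRing M) : ℂ) := rfl
  have h6 : zc (eB {χ : IrrCharacter G | dec D hM χ i ≠ 0}) g =
      (toA (eB {χ : IrrCharacter G | dec D hM χ i ≠ 0})).coeff g := rfl
  rw [h6, ← h4, h5]
  exact (ε.coeff g).2

/-- if all degrees agree then there is only one Brauer character and all decomposition numbers are `1` -/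
theorem unique_of_deg {B : Set (IrrCharacter G)} (hB : IsPBlock M B) {n : ℕ}
    (hn : ∀ χ ∈ B, charDegree (χ : G → ℂ) = n) :
    ∃ i, InB D B i ∧ (∀ j, InB D B j → j = i) ∧ ∀ χ ∈ B, dec D hM χ i = 1 := by
  classical
  obtain ⟨χ0, hχ0⟩ := isPBlock_nonempty hB
  have hall : ∀ {i : Fin D.n}, InB D B i → ∀ χ ∈ B, dec D hM χ i ≠ 0 := by
    intro i hi χ hχ
    obtain ⟨ψ, hψ, h⟩ := exists_dec_pos D hM hB hi
    exact union_of_deg D hM hB hn hi ψ h.ne' χ (isPBlock_sameBlock hB hψ hχ)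
  have h1 := sum_dec_one D hM hB hn hχ0
  obtain ⟨i, _, hi⟩ : ∃ i ∈ (Finset.univ : Finset (Fin D.n)), dec D hM χ0 i ≠ 0 := by
    apply Finset.exists_ne_zero_of_sum_ne_zero
    rw [h1]
    exact one_ne_zero
  have hiB : InB D B i := by
    by_contra h
    exact hi (dec_of_not D hM hB hχ0 h)
  refine ⟨i, hiB, ?_, ?_⟩
  · intro j hj
    by_contra hji
    have h2 := hall hj χ0 hχ0
    have h3 : dec D hM χ0 i + dec D hM χ0 j ≤ 1 := by
      rw [← h1]
      have h4 : ∑ l ∈ {i, j}, dec D hM χ0 l ≤ ∑ l, dec D hM χ0 l :=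
        Finset.sum_le_sum_of_subset (Finset.subset_univ _)
      rwa [Finset.sum_pair (Ne.symm hji)] at h4
    omega
  · intro χ hχ
    have h2 := hall hiB χ hχ
    have h3 := sum_dec_one D hM hB hn hχ
    have h4 : dec D hM χ i ≤ 1 := by
      rw [← h3]
      exact Finset.single_le_sum (f := fun j => dec D hM χ j) (fun j _ => Nat.zero_le _) (Finset.mem_univ i)
    omega

include D in
theorem card_of_deg {B : Set (IrrCharacter G)} (hB : IsPBlock M B) {n : ℕ}
    (hn : ∀ χ ∈ B, charDegree (χ : G → ℂ) = n) : Nat.card B = p ^ blockDefect p B := by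
  classical
  letI := Fintype.ofFinite (IrrCharacter G)
  obtain ⟨i, hi, hu, h1⟩ := unique_of_deg D hM hB hn
  rw [← sum_dec_sq D hM hB hi hu]
  rw [Nat.card_eq_fintype_card, Fintype.card_subtype, Finset.card_eq_sum_ones, Finset.sum_filter]
  refine Finset.sum_congr rfl fun χ _ => ?_
  split_ifs with hχ
  · rw [h1 χ hχ, one_pow]
  · rw [dec_of_notMem D hM hB hχ hi]
    rfl

end eqdeg

theorem nilpotent_of_deg (hM : IsPModular p M) {B : Set (IrrCharacter G)} (hB : IsPBlock M B) {n : ℕ}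
    (hn : ∀ χ ∈ B, charDegree (χ : G → ℂ) = n) {P : Subgroup G} (hP : IsDefectGroup p M B P)
    (hPab : ∀ x ∈ P, ∀ y ∈ P, x * y = y * x) : IsNilpotentBlock p M B := by
  obtain ⟨D⟩ := exists_dat' (G := G) hM
  obtain ⟨i, hi, hu, -⟩ := unique_of_deg D hM hB hn
  apply nilpotent_of_card D hM hB hi hu hP hPab
  rw [card_of_deg D hM hB hn, card_defectGroup hM hB hP]

/-- a nilpotent block with abelian defect group has constant degrees -/
theorem deg_of_nilpotent (hM : IsPModular p M) {B : Set (IrrCharacter G)} (hB : IsPBlock M B)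
    (hnil : IsNilpotentBlock p M B) {P : Subgroup G} (hP : IsDefectGroup p M B P)
    (hPab : ∀ x ∈ P, ∀ y ∈ P, x * y = y * x) :
    ∃ n, ∀ χ ∈ B, charDegree (χ : G → ℂ) = n := by
  haveI : Fact p.Prime := ⟨hM.1⟩
  haveI : CharP (ResF M) p := charP_resF hM
  letI : Algebra (ZMod p) (ResF M) := ZMod.algebra (ResF M) p
  haveI : Algebra.IsAlgebraic (ZMod p) (ResF M) := H80.BR1.isAlgebraic_resF hM
  haveI : IsAlgClosed (ResF M) := isAlgClosed_resF
  have hnil' := (H80.FS4.nilp_iff_top (p := p) hB).1 hnil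
  obtain ⟨e', hmax'⟩ := H84.Star.exists_isMax_of_isDefectGroup hM hB hP
  obtain ⟨χ, hχ, h0⟩ := exists_height_zero hM hB
  refine ⟨charDegree (χ : G → ℂ), fun ψ hψ => ?_⟩
  obtain ⟨ζ, hζ⟩ := (H84.Star.nilEquiv hM hmax' hB hnil' hχ h0).surjective ⟨ψ, hψ⟩
  have h1 := H84.Star.nilEquiv_degree hM hmax' hB hnil' hχ h0 ζ
  rw [hζ] at h1
  have h2 : charDegree (ζ : P → ℂ) = 1 := by
    have h3 := H18.CharQuot.degree_one_of_comm (fun a b : P => Subtype.ext (hPab a a.2 b b.2)) ζ.2
    have h4 : ((charDegree (ζ : P → ℂ) : ℕ) : ℂ) = 1 := by rw [charDegree_irr, h3]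
    exact_mod_cast h4
  rw [h2, one_mul] at h1
  exact h1

end H20.Cor
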