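import Mathlib
import Cfsg.Prelude.Def_Blocks
import Cfsg.Agent.Lib.H20.Count
import Cfsg.Agent.Lib.H20.Col
import Cfsg.Agent.Lib.H20.Ind
import Cfsg.Agent.Lib.H20.IndFun
import Cfsg.Agent.Lib.H77.Cov1

/-! Fong's theorem on blocks covering an invariant block (S0970). -/

set_option autoImplicit false
set_option linter.unusedSectionVars false
set_option linter.unusedVariables false
set_option linter.style.haveILetI false
open Cfsg H20.Loc H20.GA H20.Blk H20.DefGrp H20.Defect H20.Orth H20.Height H20.Ind H20.Count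
open H77.Cov1
open scoped ComplexConjugate

universe u v

namespace H20.Fong

section general
variable {G : Type u} [Group G] [Finite G]
variable {M : Ideal AlgInt} {p : ℕ}

theorem exists_class [M.IsPrime] (χ : IrrCharacter G) {z : ZG G} (hz : z ∈ zr M G)
    (h : ¬ MemLocalIdeal M (omega χ z)) :
    ∃ g : G, ¬ MemLocalIdeal M (zc z g) ∧ ¬ MemLocalIdeal M (centralChar (χ : G → ℂ) g) := by
  letI := Fintype.ofFinite (ConjClasses G)
  by_contra! hno
  apply h
  rw [omega_sum_classes]
  apply locI_sum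
  intro C _
  by_cases h1 : MemLocalIdeal M (zc z C.out)
  · exact locI_mul_right h1 (centralChar_memR _ _)
  · exact locI_mul_left (hz _) (hno _ h1)

theorem exists_block_unit (hM : IsPModular p M) {S : Set (IrrCharacter G)} (hS : IsUnion M S)
    {g : G} (h : ¬ MemLocalIdeal M (blockCoeff S g)) :
    ∃ B, IsPBlock M B ∧ B ⊆ S ∧ ¬ MemLocalIdeal M (blockCoeff B g) := by
  classical
  haveI := pm_isPrime hM
  letI := Fintype.ofFinite (IrrCharacter G)
  by_contra! hno
  apply h
  rw [blockCoeff_eq_sum, Finset.mul_sum]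
  rw [← Finset.sum_fiberwise_of_maps_to (s := Finset.univ)
    (t := Finset.univ.image (fun χ : IrrCharacter G => blockOf M (χ : G → ℂ)))
    (g := fun χ : IrrCharacter G => blockOf M (χ : G → ℂ))
    (fun χ _ => Finset.mem_image_of_mem _ (Finset.mem_univ χ))]
  apply locI_sum
  intro b hb
  obtain ⟨χ0, _, rfl⟩ := Finset.mem_image.1 hb
  by_cases h0 : χ0 ∈ S
  · have hsub : blockOf M (χ0 : G → ℂ) ⊆ S := fun ψ hψ => hS χ0 h0 ψ hψ
    have h1 := hno _ (isPBlock_blockOf χ0) hsub
    rw [blockCoeff_eq_sum, Finset.mul_sum] at h1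
    convert h1 using 1
    rw [Finset.sum_filter]
    refine Finset.sum_congr rfl fun ψ _ => ?_
    by_cases h2 : ψ ∈ blockOf M (χ0 : G → ℂ)
    · rw [if_pos h2, if_pos (blockOf_eq_of_sameBlock h2).symm, if_pos (hsub h2)]
    · rw [if_neg h2, if_neg, mul_zero]
      intro h3
      apply h2
      rw [← h3]
      exact mem_blockOf_self ψ
  · have : ∑ χ ∈ Finset.univ.filter (fun χ : IrrCharacter G => blockOf M (χ : G → ℂ) =
        blockOf M (χ0 : G → ℂ)), (Nat.card G : ℂ)⁻¹ *
          (if χ ∈ S then (χ : G → ℂ) 1 * conj ((χ : G → ℂ) g) else 0) = 0 := by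
      apply Finset.sum_eq_zero
      intro ψ hψ
      rw [Finset.mem_filter] at hψ
      rw [if_neg, mul_zero]
      intro h2
      apply h0
      refine hS ψ h2 χ0 ?_
      have : χ0 ∈ blockOf M (ψ : G → ℂ) := by rw [hψ.2]; exact mem_blockOf_self χ0
      exact this
    rw [this]
    exact locI_zero

end general

section arith
variable {G : Type u} [Group G] [Finite G] {p : ℕ}

theorem fact_mul_relIndex (hp : p.Prime) (N H : Subgroup G) :
    (Nat.card H).factorization p =
      (Nat.card (H ⊓ N : Subgroup G)).factorization p + (N.relIndex H).factorization p := by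
  have h1 : Nat.card (H ⊓ N : Subgroup G) * N.relIndex H = Nat.card H := by
    rw [← Subgroup.inf_relIndex_left, ← Subgroup.relIndex_bot_left, ← Subgroup.relIndex_bot_left]
    exact Subgroup.relIndex_mul_relIndex _ _ _ bot_le inf_le_left
  have h2 : Nat.card (H ⊓ N : Subgroup G) ≠ 0 := Nat.card_pos.ne'
  have h3 : N.relIndex H ≠ 0 := fun h => by
    rw [h, mul_zero] at h1
    exact Nat.card_pos.ne' h1.symm
  rw [← h1, Nat.factorization_mul h2 h3, Finsupp.add_apply]

theorem relIndex_ne_zero' (N H : Subgroup G) : N.relIndex H ≠ 0 := by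
  have h1 : Nat.card (H ⊓ N : Subgroup G) * N.relIndex H = Nat.card H := by
    rw [← Subgroup.inf_relIndex_left, ← Subgroup.relIndex_bot_left, ← Subgroup.relIndex_bot_left]
    exact Subgroup.relIndex_mul_relIndex _ _ _ bot_le inf_le_left
  intro h
  rw [h, mul_zero] at h1
  exact Nat.card_pos.ne' h1.symm

theorem relIndex_dvd (N : Subgroup G) [N.Normal] {P C : Subgroup G} (h : P ≤ C) :
    N.relIndex P ∣ N.relIndex C := by
  have h1 : (N.subgroupOf C).relIndex (P.subgroupOf C) ∣ (N.subgroupOf C).index :=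
    Subgroup.relIndex_dvd_index_of_normal _ _
  rwa [Subgroup.relIndex_subgroupOf h] at h1

end arith

section main
variable {G : Type u} [Group G] [Fintype G] (N : Subgroup G) [hN : N.Normal] [Fintype N]
variable {M : Ideal AlgInt} {p : ℕ}

/-- splitting of a `G`-class of `N` into `N`-classes. -/
theorem split_class [M.IsPrime] {b : Set (IrrCharacter N)} (hb : IsPBlock M b)
    (hinv : ∀ θ ∈ b, ∀ g : G, cI N g θ ∈ b) (x : N) :
    ∃ r : ℕ, (Subgroup.centralizer ({(x : G)} : Set G)).index =
        r * (Subgroup.centralizer ({x} : Set N)).index ∧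
      ∀ θ ∈ b, MemLocalIdeal M (inducedCentralChar N (θ : N → ℂ) (x : G) -
        (r : ℂ) * centralChar (θ : N → ℂ) x) := by
  classical
  letI := Fintype.ofFinite (ConjClasses N)
  let T : Finset (ConjClasses N) :=
    Finset.univ.filter fun C : ConjClasses N => IsConj (x : G) ((C.out : N) : G)
  have hform : ∀ θ : IrrCharacter N, omega θ (resZ N (cls (x : G))) =
      ∑ C ∈ T, centralChar (θ : N → ℂ) C.out := by
    intro θ
    rw [omega_sum_classes, Finset.sum_filter]
    refine Finset.sum_congr rfl fun C _ => ?_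
    rw [zc_resZ]
    by_cases h : IsConj (x : G) ((C.out : N) : G)
    · rw [zc_cls_of h, if_pos h, one_mul]
    · rw [zc_cls_not h, if_neg h, zero_mul]
  have hconj : ∀ C ∈ T, ∃ g : G, (C.out : N) = ⟨g * x * g⁻¹, hN.conj_mem x x.2 g⟩ := by
    intro C hC
    obtain ⟨g, hg⟩ := isConj_iff.1 (Finset.mem_filter.1 hC).2
    exact ⟨g, Subtype.ext hg.symm⟩
  refine ⟨T.card, ?_, ?_⟩
  · -- count with the principal character
    let o : IrrCharacter N := ⟨fun _ => 1, H18.CharBasic.isIrrCharacter_one⟩
    have h1 := hform o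
    have h2 : ∀ C ∈ T, centralChar (o : N → ℂ) C.out =
        ((Subgroup.centralizer ({x} : Set N)).index : ℂ) := by
      intro C hC
      obtain ⟨g, hg⟩ := hconj C hC
      rw [hg, ← centralChar_cI N g o x]
      have h3 : cI N g o = o := by
        apply Subtype.ext; funext n; rfl
      rw [h3, centralChar]
      show _ * (1 : ℂ) / 1 = _
      rw [mul_one, div_one]
    rw [Finset.sum_congr rfl h2, Finset.sum_const, nsmul_eq_mul, omega_eq_sum] at h1
    have h4 : (∑ h : N, zc (resZ N (cls (x : G))) h * (o : N → ℂ) h) / (o : N → ℂ) 1 =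
        ∑ h : N, zc (cls (x : G)) (h : G) := by
      show (∑ h : N, zc (resZ N (cls (x : G))) h * (1 : ℂ)) / (1 : ℂ) = _
      rw [div_one]
      exact Finset.sum_congr rfl fun h _ => by rw [mul_one, zc_resZ]
    rw [h4, ← sum_over N (fun g => zc (cls (x : G)) g)] at h1
    · have h5 := H20.IndFun.sum_mul_cls (f := fun _ : G => (1 : ℂ)) (fun _ _ => rfl) (x : G)
      simp only [one_mul, mul_one] at h5
      rw [h5] at h1
      exact_mod_cast h1
    · intro g hg
      apply zc_cls_not
      intro hc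
      obtain ⟨c, hc⟩ := isConj_iff.1 hc
      exact hg (hc ▸ hN.conj_mem x x.2 c)
  · intro θ hθ
    rw [H20.Ind.inducedCentralChar_eq, hform]
    have h1 : ((T.card : ℕ) : ℂ) * centralChar (θ : N → ℂ) x =
        ∑ C ∈ T, centralChar (θ : N → ℂ) x := by
      rw [Finset.sum_const, nsmul_eq_mul]
    rw [h1]
    apply locI_sum_congr
    intro C hC
    obtain ⟨g, hg⟩ := hconj C hC
    rw [hg, ← centralChar_cI N g θ x]
    exact isPBlock_sameBlock hb (hinv θ hθ g) hθ x

/-- `χ` covers `b` -/
def Cov (b : Set (IrrCharacter N)) (χ : IrrCharacter G) : Prop :=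
  ∃ θ ∈ b, classInner (fun n : N => (χ : G → ℂ) n) (θ : N → ℂ) ≠ 0

theorem invZ_of {b : Set (IrrCharacter N)} (hinv : ∀ θ ∈ b, ∀ g : G, cI N g θ ∈ b) :
    InvZ N (eB b) := eB_inv N hinv

theorem omega_up_eB {b : Set (IrrCharacter N)} (hinv : ∀ θ ∈ b, ∀ g : G, cI N g θ ∈ b)
    (χ : IrrCharacter G) [Decidable (χ ∈ {χ : IrrCharacter G | Cov N b χ})] :
    omega χ (up N (invZ_of N hinv)) = if χ ∈ {χ : IrrCharacter G | Cov N b χ} then 1 else 0 := by
  split_ifs with h
  · obtain ⟨θ, hθ, hc⟩ := h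
    rw [omega_up N _ χ θ hc, omega_eB_mem hθ]
  · obtain ⟨η0, hη0, hη⟩ := H18.CharQuot.exists_constituent_restrict N χ.2
    let η : IrrCharacter N := ⟨η0, hη0⟩
    rw [omega_up N _ χ η hη, omega_eB_notMem]
    intro hmem
    exact h ⟨η, hmem, hη⟩

theorem up_eB {b : Set (IrrCharacter N)} (hinv : ∀ θ ∈ b, ∀ g : G, cI N g θ ∈ b) :
    up N (invZ_of N hinv) = eB {χ : IrrCharacter G | Cov N b χ} := by
  classical
  apply eq_of_omega
  intro χ
  rw [omega_up_eB N hinv, omega_eB]

theorem isUnion_cov [M.IsPrime] {b : Set (IrrCharacter N)} (hb : IsPBlock M b)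
    (hinv : ∀ θ ∈ b, ∀ g : G, cI N g θ ∈ b) : IsUnion M {χ : IrrCharacter G | Cov N b χ} := by
  apply isUnion_of_eB_mem
  rw [← up_eB N hinv]
  exact up_mem N _ (eB_mem hb)

/-- S0970 -/
theorem fong (hM : IsPModular p M) {b : Set (IrrCharacter N)} (hb : IsPBlock M b)
    (hinv : ∀ θ ∈ b, ∀ g : G, cI N g θ ∈ b) {B : Set (IrrCharacter G)} (hB : IsPBlock M B)
    (hcov : ∃ χ ∈ B, Cov N b χ)
    (hmax : ∀ B' : Set (IrrCharacter G), IsPBlock M B' → (∃ χ ∈ B', Cov N b χ) →
      blockDefect p B' ≤ blockDefect p B) {P : Subgroup G} (hP : IsDefectGroup p M B P) :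
    ¬ p ∣ (P ⊔ N).index ∧ IsDefectGroup p M b ((P ⊓ N).subgroupOf N) ∧
      blockDefect p B = blockDefect p b + N.index.factorization p := by
  classical
  haveI := pm_isPrime hM
  haveI : Fact p.Prime := ⟨pm_prime hM⟩
  have hp := pm_prime hM
  set S : Set (IrrCharacter G) := {χ : IrrCharacter G | Cov N b χ} with hS
  have hSU : IsUnion M S := isUnion_cov N hb hinv
  obtain ⟨χ, hχB, hχc⟩ := hcov
  have hBS : B ⊆ S := by
    intro ψ hψ
    exact hSU χ hχc ψ (isPBlock_sameBlock hB hχB hψ)
  -- a class in `N`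
  have h1 : ¬ MemLocalIdeal M (omega χ (eB S)) := by
    rw [omega_eB_mem hχc]; exact not_locI_one
  have hmem : eB S ∈ zr M G := by rw [hS, ← up_eB N hinv]; exact up_mem N _ (eB_mem hb)
  obtain ⟨k, hk1, hk2⟩ := exists_class χ hmem h1
  -- every character covering `b` has unit central character at `k`
  have hkN : k ∈ N := by
    by_contra hno
    apply hk1
    rw [hS, ← up_eB N hinv, zc_up_notMem N _ hno]
    exact locI_zero
  have hunit : ∀ ψ ∈ S, ¬ MemLocalIdeal M (centralChar (ψ : G → ℂ) k) := by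
    rintro ψ ⟨θ, hθ, hc⟩
    obtain ⟨θ0, hθ0, hc0⟩ := hχc
    have e1 := centralChar_eq N ψ θ hc ⟨k, hkN⟩
    have e2 := centralChar_eq N χ θ0 hc0 ⟨k, hkN⟩
    have e3 : MemLocalIdeal M (inducedCentralChar N (θ : N → ℂ) k -
        inducedCentralChar N (θ0 : N → ℂ) k) := by
      rw [H20.Ind.inducedCentralChar_eq, H20.Ind.inducedCentralChar_eq]
      exact sameBlock_iff.1 (isPBlock_sameBlock hb hθ hθ0) _ (resZ_mem N (cls_mem k))
    have e1' : centralChar (ψ : G → ℂ) k = inducedCentralChar N (θ : N → ℂ) k := e1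
    have e2' : centralChar (χ : G → ℂ) k = inducedCentralChar N (θ0 : N → ℂ) k := e2
    rw [e1', locI_congr e3, ← e2']
    exact hk2
  -- a block `B''` for which `k` is a defect class
  obtain ⟨B'', hB'', hsub, hk3⟩ := exists_block_unit hM hSU hk1
  have hdef : IsDefectClass M B'' k :=
    ⟨blockCoeff_memR hB'' k, hk3, fun ψ hψ => hunit ψ (hsub hψ)⟩
  have hd1 : blockDefect p B'' ≤ blockDefect p B := by
    apply hmax B'' hB''
    obtain ⟨ψ, hψ⟩ := isPBlock_nonempty hB''
    exact ⟨ψ, hψ, hsub hψ⟩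
  rw [blockDefect_eq hM hB'' hdef] at hd1
  have hd2 := defect_le_of_unit hM hB hχB hk2
  have hd3 : blockDefect p B = (Nat.card (Subgroup.centralizer ({k} : Set G))).factorization p :=
    le_antisymm hd2 hd1
  -- move `k` so that `P` is in the centralizer
  obtain ⟨y, hy, S0, hS0⟩ := hP
  obtain ⟨x, hkx, hPx⟩ := sylow_le_of_blockCoeff hM hB (g := k) (h := y) ⟨χ, hχB, hk2⟩ hy.2.1
    (isPGroup_sylC y S0) (sylC_le y S0)
  have hPx' : P ≤ Subgroup.centralizer ({x} : Set G) := by rw [hS0]; exact hPx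
  have hPD : IsDefectGroup p M B P := ⟨y, hy, S0, hS0⟩
  have hPp := isPGroup_of_isDefectGroup hPD
  have hxN : x ∈ N := by
    obtain ⟨c, hc⟩ := isConj_iff.1 hkx
    rw [← hc]; exact hN.conj_mem k hkN c
  have hcx : (Nat.card (Subgroup.centralizer ({k} : Set G))).factorization p =
      (Nat.card (Subgroup.centralizer ({x} : Set G))).factorization p := by
    obtain ⟨c, hc⟩ := isConj_iff.1 hkx
    have h2 := index_centralizer_equiv (MulAut.conj c : G ≃* G) k
    have h3 : (MulAut.conj c : G ≃* G) k = x := hc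
    rw [h3] at h2
    have h4 := factorization_index (p := p) k
    have h5 := factorization_index (p := p) x
    rw [h2] at h5
    omega
  have hxe : ¬ MemLocalIdeal M (zc (eB S) x) := by rwa [← zc_conj (eB S) hkx]
  have hxω : ∀ ψ ∈ S, ¬ MemLocalIdeal M (centralChar (ψ : G → ℂ) x) := by
    intro ψ hψ
    rw [← omega_cls, ← cls_congr hkx, omega_cls]
    exact hunit ψ hψ
  -- `x` is a defect class of `b`
  obtain ⟨r, hr1, hr2⟩ := split_class N hb hinv ⟨x, hxN⟩
  obtain ⟨θ0, hθ0, hc0⟩ := hχc
  have hu1 : ¬ MemLocalIdeal M ((r : ℂ) * centralChar (θ0 : N → ℂ) ⟨x, hxN⟩) := by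
    rw [← locI_congr (hr2 θ0 hθ0), ← centralChar_eq N χ θ0 hc0 ⟨x, hxN⟩]
    exact hxω χ ⟨θ0, hθ0, hc0⟩
  have hru : ¬ p ∣ r := by
    intro h
    exact hu1 (locI_mul_right ((locI_natCast_iff hM).2 h) (centralChar_memR _ _))
  have hθu : ¬ MemLocalIdeal M (centralChar (θ0 : N → ℂ) ⟨x, hxN⟩) := fun h =>
    hu1 (locI_mul_left (locR_natCast r) h)
  have hdb : IsDefectClass M b ⟨x, hxN⟩ := by
    refine ⟨blockCoeff_memR hb _, ?_, fun θ hθ => ?_⟩
    · have h2 : zc (eB S) x = blockCoeff b ⟨x, hxN⟩ := by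
        rw [hS, ← up_eB N hinv, zc_up_mem N _ hxN, zc_eB]
      rwa [h2] at hxe
    · rwa [centralChar_unit_iff hb hθ hθ0]
  have hdbb := blockDefect_eq hM hb hdb
  -- orders
  set C := Subgroup.centralizer ({x} : Set G) with hC
  have hcardN : Nat.card (Subgroup.centralizer ({(⟨x, hxN⟩ : N)} : Set N)) =
      Nat.card (C ⊓ N : Subgroup G) := by
    have h2 : (Subgroup.centralizer ({(⟨x, hxN⟩ : N)} : Set N)).map N.subtype = C ⊓ N := by
      ext g
      constructor
      · rintro ⟨n, hn, rfl⟩
        have hn' := Subgroup.mem_centralizer_singleton_iff.1 (SetLike.mem_coe.1 hn)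
        have hn2 : (n : G) ∈ Subgroup.centralizer ({x} : Set G) :=
          Subgroup.mem_centralizer_singleton_iff.2 (congrArg Subtype.val hn')
        exact Subgroup.mem_inf.2 ⟨hn2, n.2⟩
      · intro hg
        obtain ⟨hg1, hg2⟩ := Subgroup.mem_inf.1 hg
        have hg3 : g ∈ Subgroup.centralizer ({x} : Set G) := hg1
        refine ⟨⟨g, hg2⟩, ?_, rfl⟩
        exact SetLike.mem_coe.2 (Subgroup.mem_centralizer_singleton_iff.2
          (Subtype.ext (Subgroup.mem_centralizer_singleton_iff.1 hg3)))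
    rw [← h2]
    exact (Subgroup.card_map_of_injective (Subgroup.subtype_injective _)).symm
  have hvidx : N.index.factorization p + (Nat.card (C ⊓ N : Subgroup G)).factorization p =
      (Nat.card C).factorization p := by
    have e1 : (Subgroup.centralizer ({((⟨x, hxN⟩ : N) : G)} : Set G)).index.factorization p =
        (r * (Subgroup.centralizer ({(⟨x, hxN⟩ : N)} : Set N)).index).factorization p := by
      rw [hr1]
    have hr0 : r ≠ 0 := by
      rintro rfl
      exact hru (dvd_zero p)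
    rw [Nat.factorization_mul hr0 Subgroup.index_ne_zero_of_finite,
      Finsupp.add_apply, Nat.factorization_eq_zero_of_not_dvd hru, zero_add] at e1
    have e2 := factorization_index (p := p) x
    have e3 := factorization_index (G := N) (p := p) ⟨x, hxN⟩
    rw [← e1, hcardN] at e3
    have e4 : (Nat.card G).factorization p = (Nat.card N).factorization p + N.index.factorization p := by
      rw [← Subgroup.card_mul_index N, Nat.factorization_mul Nat.card_pos.ne'
        Subgroup.index_ne_zero_of_finite, Finsupp.add_apply]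
    have e5 : (Subgroup.centralizer ({((⟨x, hxN⟩ : N) : G)} : Set G)) = C := rfl
    rw [e5] at e3 e1
    rw [← hC] at e2
    rw [e4] at e2
    omega
  have hPcard : (Nat.card P).factorization p = (Nat.card C).factorization p := by
    rw [card_defectGroup hM hB hPD, hd3, hcx, Nat.factorization_pow, Finsupp.smul_apply,
      hp.factorization_self, smul_eq_mul, mul_one]
  have f1 := fact_mul_relIndex hp N P
  have f2 := fact_mul_relIndex hp N C
  have f3 : (N.relIndex P).factorization p ≤ (N.relIndex C).factorization p := by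
    refine (Nat.factorization_le_iff_dvd ?_ ?_).2 (relIndex_dvd N hPx') p
    · exact relIndex_ne_zero' _ _
    · exact relIndex_ne_zero' _ _
  have f4 : (Nat.card (P ⊓ N : Subgroup G)).factorization p ≤
      (Nat.card (C ⊓ N : Subgroup G)).factorization p :=
    (Nat.factorization_le_iff_dvd Nat.card_pos.ne' Nat.card_pos.ne').2
      (Subgroup.card_dvd_of_le (inf_le_inf_right N hPx')) p
  have f5 : (Nat.card (P ⊓ N : Subgroup G)).factorization p =
      (Nat.card (C ⊓ N : Subgroup G)).factorization p := by omega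
  have f6 : (N.relIndex P).factorization p = N.index.factorization p := by omega
  refine ⟨?_, ?_, ?_⟩
  · -- index
    intro hdvd
    have e1 : N.relIndex (P ⊔ N) * (P ⊔ N).index = N.index := Subgroup.relIndex_mul_index le_sup_right
    rw [Subgroup.relIndex_sup_right] at e1
    have e2 : (N.relIndex P * (P ⊔ N).index).factorization p = N.index.factorization p := by
      rw [e1]
    have e3 : (P ⊔ N).index ≠ 0 := Subgroup.index_ne_zero_of_finite
    rw [Nat.factorization_mul (relIndex_ne_zero' _ _) e3, Finsupp.add_apply, f6] at e2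
    have e4 := hp.factorization_pos_of_dvd e3 hdvd
    omega
  · refine ⟨⟨x, hxN⟩, hdb, ?_⟩
    -- the Sylow subgroup
    have hle : (P ⊓ N).subgroupOf N ≤ Subgroup.centralizer ({(⟨x, hxN⟩ : N)} : Set N) := by
      intro n hn
      rw [Subgroup.mem_subgroupOf] at hn
      rw [Subgroup.mem_centralizer_singleton_iff]
      exact Subtype.ext (Subgroup.mem_centralizer_singleton_iff.1 (hPx' hn.1))
    set Q := ((P ⊓ N).subgroupOf N).subgroupOf (Subgroup.centralizer ({(⟨x, hxN⟩ : N)} : Set N)) with hQ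
    have hQmap : Q.map (Subgroup.centralizer ({(⟨x, hxN⟩ : N)} : Set N)).subtype =
        (P ⊓ N).subgroupOf N := by
      rw [hQ, Subgroup.subgroupOf_map_subtype, inf_eq_left.2 hle]
    have hcardQ : Nat.card Q = Nat.card (P ⊓ N : Subgroup G) := by
      rw [hQ, Nat.card_congr (Subgroup.subgroupOfEquivOfLe hle).toEquiv,
        Nat.card_congr (Subgroup.subgroupOfEquivOfLe (inf_le_right : P ⊓ N ≤ N)).toEquiv]
    have hPN : IsPGroup p (P ⊓ N : Subgroup G) := hPp.to_le inf_le_left
    obtain ⟨n, hn⟩ := IsPGroup.iff_card.1 hPN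
    have hQcard : Nat.card Q = p ^ (Nat.card (Subgroup.centralizer
        ({(⟨x, hxN⟩ : N)} : Set N))).factorization p := by
      rw [hcardQ, hcardN, ← f5, hn, Nat.factorization_pow, Finsupp.smul_apply,
        hp.factorization_self, smul_eq_mul, mul_one]
    exact ⟨Sylow.ofCard Q hQcard, hQmap.symm⟩
  · rw [hdbb, hcardN, hd3, hcx]; omega

end main

end H20.Fong
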