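import Mathlib
import Cfsg.Prelude.Def_Blocks
import Cfsg.Agent.Lib.H20.LN
import Cfsg.Agent.Lib.H20.Fong
import Cfsg.Agent.Lib.H20.PCDef
import Cfsg.Agent.Lib.H4.CenterIndex
import Cfsg.Agent.Lib.H81.CentralVal

/-! Reynolds' theorem: a normal defect group is abelian iff all heights are zero (S0972). -/

set_option autoImplicit false
set_option linter.unusedSectionVars false
set_option linter.unusedVariables false
set_option linter.style.haveILetI false
open Cfsg H20.Loc H20.GA H20.Blk H20.DefGrp H20.Defect H20.Orth H20.Height H20.First H20.Ind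
  H20.BrIdem H20.LN H20.NormQ
open scoped commutatorElement
open H19.BrMap H19.BrMap2 H77.Cov1
open scoped ComplexConjugate

universe u v

namespace H20.Rey

section setting
variable {G : Type u} [Group G] (P : Subgroup G)

theorem normal_LH {H : Subgroup G} (hHN : H ≤ N P) : ((L P).subgroupOf H).Normal := by
  refine ⟨fun l hl n => ?_⟩
  rw [Subgroup.mem_subgroupOf] at hl ⊢
  exact conj_mem_L P (hHN n.2) hl

variable [Finite G] {M : Ideal AlgInt} {p : ℕ}

theorem omega_brm_over' {H : Subgroup G} (hLH : L P ≤ H) (hHN : H ≤ N P) [Fintype H]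
    [Fintype ((L P).subgroupOf H)] [((L P).subgroupOf H).Normal] (θ : IrrCharacter (L P))
    (χ : IrrCharacter H)
    (h : classInner (fun n : (L P).subgroupOf H => (χ : H → ℂ) n)
      (pull (Subgroup.subgroupOfEquivOfLe hLH) θ : (L P).subgroupOf H → ℂ) ≠ 0) (z : ZG G) :
    omega χ (brm P H hHN z) = omega θ (brm P (L P) (L_le_N P) z) := by
  rw [omega_of_supported ((L P).subgroupOf H) _ (by
    intro g hg
    apply zc_brm_notMem hHN
    intro hgC
    exact hg (Subgroup.mem_subgroupOf.2 ((le_sup_right : _ ≤ L P) hgC))) χ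
    (pull (Subgroup.subgroupOfEquivOfLe hLH) θ) h]
  apply omega_pull
  intro a
  rw [zc_resZ]
  by_cases ha : ((a : H) : G) ∈ Subgroup.centralizer (P : Set G)
  · rw [zc_brm_mem hHN z ha, zc_brm_mem (L_le_N P) z
      (h := Subgroup.subgroupOfEquivOfLe hLH a) ha]
    rfl
  · rw [zc_brm_notMem hHN z ha, zc_brm_notMem (L_le_N P) z
      (h := Subgroup.subgroupOfEquivOfLe hLH a) ha]

theorem induced_over' {H : Subgroup G} (hLH : L P ≤ H) (hHN : H ≤ N P) [Fintype H]
    [Fintype ((L P).subgroupOf H)] [((L P).subgroupOf H).Normal] (hM : IsPModular p M)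
    (hP : IsPGroup p P) {b : Set (IrrCharacter (L P))} {B : Set (IrrCharacter G)}
    (hind : IsInducedBlock M (L P) b B) {θ : IrrCharacter (L P)} (hθ : θ ∈ b)
    (χ : IrrCharacter H)
    (h : classInner (fun n : (L P).subgroupOf H => (χ : H → ℂ) n)
      (pull (Subgroup.subgroupOfEquivOfLe hLH) θ : (L P).subgroupOf H → ℂ) ≠ 0) :
    IsInducedBlock M H (blockOf M (χ : H → ℂ)) B := by
  haveI := pm_isPrime hM
  have hPH : P ≤ H := le_trans le_sup_left hLH
  have hC : Subgroup.centralizer (P : Set G) ≤ H := le_trans le_sup_right hLH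
  obtain ⟨B', hB'⟩ := exists_induced hM hP hPH hC hHN (isPBlock_blockOf χ)
  obtain ⟨ψ, hψ⟩ := isPBlock_nonempty hB'.2.1
  obtain ⟨φ, hφ⟩ := isPBlock_nonempty hind.2.1
  have hsb : SameBlock M (φ : G → ℂ) (ψ : G → ℂ) := by
    rw [sameBlock_iff]
    intro z hz
    have h1 := omega_brm_congr hM hP hPH hC hHN hB' (mem_blockOf_self χ) hψ hz
    have h2 := omega_brm_congr hM hP (le_sup_left : P ≤ L P)
      (le_sup_right : Subgroup.centralizer (P : Set G) ≤ L P) (L_le_N P) hind hθ hφ hz
    rw [omega_brm_over' P hLH hHN θ χ h z] at h1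
    exact locI_trans (locI_sub_comm.1 h2) h1
  have h3 : ψ ∈ B := (isPBlock_mem_iff hind.2.1 hφ ψ).2 hsb
  rwa [isPBlock_eq_of_mem hind.2.1 hB'.2.1 h3 hψ]

/-- for `P` normal: the characters over a character of `b` lie in the induced block -/
theorem mem_of_over [P.Normal] [(L P).Normal] [Fintype G] [Fintype (L P)] (hM : IsPModular p M)
    (hP : IsPGroup p P) {b : Set (IrrCharacter (L P))} {B : Set (IrrCharacter G)}
    (hind : IsInducedBlock M (L P) b B) {θ : IrrCharacter (L P)} (hθ : θ ∈ b)
    (χ : IrrCharacter G)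
    (h : classInner (fun n : L P => (χ : G → ℂ) n) (θ : L P → ℂ) ≠ 0) : χ ∈ B := by
  haveI := pm_isPrime hM
  obtain ⟨ψ, hψ⟩ := isPBlock_nonempty hind.2.1
  rw [isPBlock_mem_iff hind.2.1 hψ χ]
  intro g
  by_cases hg : g ∈ Subgroup.centralizer (P : Set G)
  · have hgL : g ∈ L P := (le_sup_right : _ ≤ L P) hg
    have h1 := centralChar_eq (L P) χ θ h ⟨g, hgL⟩
    have h2 : centralChar (χ : G → ℂ) g = inducedCentralChar (L P) (θ : L P → ℂ) g := h1
    rw [h2]
    exact locI_sub_comm.1 (hind.2.2 θ hθ ψ hψ g)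
  · have h1 := omega_cls_memI hM P hP χ g hg
    have h2 := omega_cls_memI hM P hP ψ g hg
    rw [omega_cls] at h1 h2
    exact locI_sub h2 h1

theorem sup_centralizer_subgroupOf :
    P.subgroupOf (L P) ⊔ Subgroup.centralizer ((P.subgroupOf (L P) : Subgroup (L P)) : Set (L P)) = ⊤ := by
  apply Subgroup.map_injective (Subgroup.subtype_injective (L P))
  have h1 : (Subgroup.centralizer ((P.subgroupOf (L P) : Subgroup (L P)) : Set (L P))).map
      (L P).subtype = Subgroup.centralizer (P : Set G) := by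
    ext g
    constructor
    · rintro ⟨n, hn, rfl⟩
      rw [Subgroup.mem_centralizer_iff]
      intro y hy
      have h2 := Subgroup.mem_centralizer_iff.1 (SetLike.mem_coe.1 hn)
        ⟨y, (le_sup_left : P ≤ L P) hy⟩ (Subgroup.mem_subgroupOf.2 hy)
      exact congrArg Subtype.val h2
    · intro hg
      refine ⟨⟨g, (le_sup_right : _ ≤ L P) hg⟩, ?_, rfl⟩
      rw [SetLike.mem_coe, Subgroup.mem_centralizer_iff]
      intro y hy
      exact Subtype.ext (Subgroup.mem_centralizer_iff.1 hg _ (Subgroup.mem_subgroupOf.1 hy))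
  rw [Subgroup.map_sup, h1, Subgroup.subgroupOf_map_subtype,
    inf_eq_left.2 (le_sup_left : P ≤ L P), ← MonoidHom.range_eq_map, Subgroup.range_subtype]

end setting

section stab
variable {G : Type u} [Group G] [Finite G] (N : Subgroup G) [hN : N.Normal]

/-- stabilizer of a set of characters of `N` -/
def stab (b : Set (IrrCharacter N)) : Subgroup G where
  carrier := {g | ∀ θ, θ ∈ b ↔ cI N g θ ∈ b}
  one_mem' := fun θ => by rw [cI_one]
  mul_mem' := fun {a c} ha hc θ => by
    rw [← cI_mul]
    exact (ha θ).trans (hc _)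
  inv_mem' := fun {a} ha θ => by
    have h := ha (cI N a⁻¹ θ)
    rw [cI_mul, inv_mul_cancel, cI_one] at h
    exact h.symm

theorem mem_stab {b : Set (IrrCharacter N)} {g : G} : g ∈ stab N b ↔ ∀ θ, θ ∈ b ↔ cI N g θ ∈ b :=
  Iff.rfl

theorem le_stab (b : Set (IrrCharacter N)) : N ≤ stab N b := by
  intro g hg θ
  have h : cI N g θ = θ := Subtype.ext (H31.Clifford.cj_mem N (irr_class θ) hg)
  rw [h]

theorem inertia_le_stab {G : Type u} [Group G] [Fintype G] (N : Subgroup G) [hN : N.Normal] {M : Ideal AlgInt} [M.IsPrime] {b : Set (IrrCharacter N)} (hb : IsPBlock M b)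
    {θ : IrrCharacter N} (hθ : θ ∈ b) : H31.Clifford.inertia N (θ : N → ℂ) ≤ stab N b := by
  intro g hg η
  have h : cI N g θ = θ := Subtype.ext ((H31.Clifford.mem_inertia N).1 hg)
  rw [isPBlock_mem_iff hb hθ η, isPBlock_mem_iff hb hθ (cI N g η)]
  constructor
  · intro h1
    have h2 := sameBlock_cI (M := M) N g h1
    rwa [h] at h2
  · intro h1
    have h2 := sameBlock_cI (M := M) N g⁻¹ h1
    have h3 : cI N g⁻¹ θ = θ := by
      conv_lhs => rw [← h]
      rw [cI_mul, mul_inv_cancel, cI_one]
    rwa [h3, cI_mul, mul_inv_cancel, cI_one] at h2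

end stab

section pulls
variable {A : Type u} {B : Type v} [Group A] [Group B] {p : ℕ}

theorem charDegree_pull (e : A ≃* B) (χ : IrrCharacter B) :
    charDegree (pull e χ : A → ℂ) = charDegree (χ : B → ℂ) := by
  rw [charDegree, charDegree, pull_apply, map_one]

theorem blockDefect_pull (e : A ≃* B) {b : Set (IrrCharacter B)} {b' : Set (IrrCharacter A)}
    (h : ∀ χ, χ ∈ b ↔ pull e χ ∈ b') : blockDefect p b' = blockDefect p b := by
  rw [blockDefect, blockDefect, Nat.card_congr e.toEquiv]
  congr 2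
  ext n
  constructor
  · rintro ⟨χ, hχ, rfl⟩
    refine ⟨pull e.symm χ, ?_, ?_⟩
    · rw [h, pull_pull_symm]; exact hχ
    · show (charDegree (pull e.symm χ : B → ℂ)).factorization p = _
      rw [charDegree_pull]
  · rintro ⟨χ, hχ, rfl⟩
    exact ⟨pull e χ, (h χ).1 hχ, by
      show (charDegree (pull e χ : A → ℂ)).factorization p = _
      rw [charDegree_pull]⟩

end pulls

section degree
variable {G : Type u} [Group G] [Fintype G] (N : Subgroup G) [hN : N.Normal] [Fintype N]
variable {M : Ideal AlgInt} {p : ℕ}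

theorem degree_over [M.IsPrime] {b : Set (IrrCharacter N)} (hb : IsPBlock M b)
    {θ : IrrCharacter N} (hθ : θ ∈ b) {χ : IrrCharacter G}
    (h : classInner (fun n : N => (χ : G → ℂ) n) (θ : N → ℂ) ≠ 0) :
    (stab N b).index.factorization p + (charDegree (θ : N → ℂ)).factorization p ≤
      (charDegree (χ : G → ℂ)).factorization p := by
  have h1 := H31.Clifford.degree_eq N χ.2 θ.2 h
  obtain ⟨m, hm⟩ : ∃ m : ℕ, classInner (fun n : N => (χ : G → ℂ) n) (θ : N → ℂ) = m :=
    H18.CharOrtho.inner_char_natCast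
      (H18.CharBasic.isCharacter_restrict N (irr_char χ)) (H18.CharBasic.isCharacter_of_isIrr θ.2)
  rw [hm, ← charDegree_irr, ← charDegree_irr] at h1
  have h2 : charDegree (χ : G → ℂ) = m * (H31.Clifford.inertia N (θ : N → ℂ)).index *
      charDegree (θ : N → ℂ) := by exact_mod_cast h1
  have h3 : (stab N b).index * charDegree (θ : N → ℂ) ∣ charDegree (χ : G → ℂ) := by
    rw [h2]
    apply Nat.mul_dvd_mul_right
    exact Dvd.dvd.mul_left (Subgroup.index_dvd_of_le (inertia_le_stab N hb hθ)) m
  have h4 := (Nat.factorization_le_iff_dvd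
    (mul_ne_zero Subgroup.index_ne_zero_of_finite (charDegree_ne_zero θ))
    (charDegree_ne_zero χ)).2 h3 p
  rwa [Nat.factorization_mul Subgroup.index_ne_zero_of_finite (charDegree_ne_zero θ),
    Finsupp.add_apply] at h4

end degree

section main
variable {G : Type u} [Group G] [Finite G] (P : Subgroup G) [hPn : P.Normal]
variable {M : Ideal AlgInt} {p : ℕ}

theorem N_eq_top : N P = ⊤ := by
  rw [eq_top_iff]
  intro g _
  rw [Subgroup.mem_normalizer_iff]
  intro h
  constructor
  · intro hh; exact hPn.conj_mem h hh g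
  · intro hh
    have := hPn.conj_mem _ hh g⁻¹
    simpa [mul_assoc] using this

instance normal_L' : (L P).Normal := ⟨fun l hl g => conj_mem_L P (by rw [N_eq_top]; trivial) hl⟩

theorem relIndex_stab (hM : IsPModular p M) {B : Set (IrrCharacter G)}
    (hP : IsDefectGroup p M B P) {b : Set (IrrCharacter (L P))}
    (hbD : IsDefectGroup p M b (P.subgroupOf (L P))) (hind : IsInducedBlock M (L P) b B) :
    ((L P).relIndex (stab (L P) b)).factorization p = 0 := by
  classical
  haveI := pm_isPrime hM
  haveI : Fact p.Prime := ⟨pm_prime hM⟩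
  letI := Fintype.ofFinite G
  set T := stab (L P) b with hT
  have hLT : L P ≤ T := le_stab (L P) b
  have hTN : T ≤ N P := by rw [N_eq_top]; exact le_top
  letI := Fintype.ofFinite T
  letI := Fintype.ofFinite ((L P).subgroupOf T)
  haveI := normal_LH P hTN
  let eT := Subgroup.subgroupOfEquivOfLe hLT
  have hPp := isPGroup_of_isDefectGroup hP
  obtain ⟨θ0, hθ0⟩ := isPBlock_nonempty hind.1
  let b' : Set (IrrCharacter ((L P).subgroupOf T)) := blockOf M (pull eT θ0 : _ → ℂ)
  have hb' : IsPBlock M b' := isPBlock_blockOf _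
  have hmem : ∀ θ, θ ∈ b ↔ pull eT θ ∈ b' := by
    intro θ
    rw [isPBlock_mem_iff hind.1 hθ0 θ]
    exact (sameBlock_pull eT).symm
  have hmem' : ∀ η, η ∈ b' ↔ pull eT.symm η ∈ b := by
    intro η
    rw [hmem, pull_pull_symm]
  have hinv : ∀ η ∈ b', ∀ t : T, cI ((L P).subgroupOf T) t η ∈ b' := by
    intro η hη t
    rw [hmem'] at hη ⊢
    have h1 : pull eT.symm (cI ((L P).subgroupOf T) t η) = cI (L P) (t : G) (pull eT.symm η) := by
      apply Subtype.ext; funext x; rfl
    rw [h1]
    exact (t.2 _).1 hη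
  have hdef : blockDefect p b' = blockDefect p b := blockDefect_pull eT hmem
  have hdef2 : blockDefect p b = blockDefect p B := by
    have h1 := card_defectGroup hM hind.1 hbD
    have h2 := card_defectGroup hM hind.2.1 hP
    have h3 : Nat.card (P.subgroupOf (L P)) = Nat.card P :=
      Nat.card_congr (Subgroup.subgroupOfEquivOfLe (le_sup_left : P ≤ L P)).toEquiv
    rw [h3, h2] at h1
    exact (Nat.pow_right_injective (pm_prime hM).two_le h1).symm
  -- maximal block
  obtain ⟨χ0, hχ0, hc0⟩ := H18.CharQuot.exists_over ((L P).subgroupOf T) (pull eT θ0).2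
  haveI : Nonempty {χ : IrrCharacter T // Fong.Cov ((L P).subgroupOf T) b' χ} :=
    ⟨⟨⟨χ0, hχ0⟩, pull eT θ0, mem_blockOf_self _, hc0⟩⟩
  obtain ⟨⟨χ1, hχ1⟩, hmax⟩ := Finite.exists_max
    (fun χ : {χ : IrrCharacter T // Fong.Cov ((L P).subgroupOf T) b' χ} =>
      blockDefect p (blockOf M ((χ : IrrCharacter T) : T → ℂ)))
  obtain ⟨D, hD⟩ := exists_isDefectGroup hM (isPBlock_blockOf (M := M) χ1)
  have hf := (Fong.fong ((L P).subgroupOf T) hM hb' hinv (isPBlock_blockOf χ1)
    ⟨χ1, mem_blockOf_self χ1, hχ1⟩ (by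
      rintro B' hB' ⟨χ, hχ, hc⟩
      have h1 := hmax ⟨χ, hc⟩
      rw [← isPBlock_eq hB' hχ] at h1
      exact h1) hD).2.2
  obtain ⟨η, hη, hc1⟩ := hχ1
  have hind1 := induced_over' P hLT hTN hM hPp hind ((hmem' η).1 hη) χ1 (by
    rw [pull_pull_symm]; exact hc1)
  obtain ⟨E, hE, hDE⟩ := Cfsg.Agent.S0917.result p M hM T _ hind1.1 B hind.2.1 hind1 D hD
  have h5 := Subgroup.card_le_of_le hDE
  rw [Subgroup.card_map_of_injective (Subgroup.subtype_injective _),
    card_defectGroup hM hind1.1 hD, card_defectGroup hM hind.2.1 hE] at h5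
  have h6 : blockDefect p (blockOf M (χ1 : T → ℂ)) ≤ blockDefect p B :=
    (Nat.pow_le_pow_iff_right (pm_prime hM).one_lt).1 h5
  rw [hf, hdef, hdef2] at h6
  have h7 : ((L P).subgroupOf T).index = (L P).relIndex T := rfl
  rw [h7] at h6
  omega

/-- S0972 -/
theorem reynolds (hM : IsPModular p M) {B : Set (IrrCharacter G)} (hB : IsPBlock M B)
    (hP : IsDefectGroup p M B P) :
    (∀ a ∈ P, ∀ c ∈ P, a * c = c * a) ↔ ∀ χ ∈ B, blockHeight p B (χ : G → ℂ) = 0 := by
  classical
  haveI := pm_isPrime hM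
  haveI : Fact p.Prime := ⟨pm_prime hM⟩
  have hPcard : (Nat.card P).factorization p = blockDefect p B := by
    rw [card_defectGroup hM hB hP, Nat.factorization_pow, Finsupp.smul_apply,
      (pm_prime hM).factorization_self, smul_eq_mul, mul_one]
  have hGcard : (Nat.card G).factorization p = (Nat.card P).factorization p +
      P.index.factorization p := by
    rw [← Subgroup.card_mul_index P, Nat.factorization_mul Nat.card_pos.ne'
      Subgroup.index_ne_zero_of_finite, Finsupp.add_apply]
  constructor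
  · intro hab χ hχ
    have h1 := H4.CenterIndex.ito χ.2 (charDegree_irr χ).symm P hab
    have h2 := (Nat.factorization_le_iff_dvd (charDegree_ne_zero χ)
      Subgroup.index_ne_zero_of_finite).2 h1 p
    rw [height_zero_iff hM hB hχ]
    have h3 := defect_le_degree hM hB hχ
    omega
  · intro hh
    letI := Fintype.ofFinite G
    letI := Fintype.ofFinite (L P)
    have hPp := isPGroup_of_isDefectGroup hP
    obtain ⟨b, hbD, hind⟩ := exists_L P hM hB hP
    set P' := P.subgroupOf (L P) with hP'
    have hP'p : IsPGroup p P' := isPGroup_of_isDefectGroup hbD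
    have htop : P' ⊔ Subgroup.centralizer (P' : Set (L P)) = ⊤ := sup_centralizer_subgroupOf P
    haveI : P'.Normal := PCDef.normal_of_sup P' htop
    obtain ⟨θ, hθ⟩ := PC.exists_infl_mem P' hM hP'p
      (fun x hx => PCDef.regular_mem P' hM htop hind.1 hbD x hx) hind.1
    have hst := relIndex_stab P hM hP hbD hind
    have hlin : ∀ ζ : IrrCharacter P', (ζ : P' → ℂ) 1 = 1 := by
      intro ζ
      by_contra hne
      have hdvd := H81.CentralVal.dvd_degree_of_isPGroup hP'p ζ hne
      obtain ⟨ψ, hψ, hval⟩ := PCDef.exists_of_zeta P' hM htop hind.1 hbD hθ ζ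
      have h1 := hval 1 1 (by
        rw [orderOf_one]; exact fun h => (pm_prime hM).one_lt.ne' (Nat.dvd_one.1 h))
      rw [Subgroup.coe_one, mul_one, ← charDegree_irr, ← charDegree_irr, ← charDegree_irr] at h1
      have h2 : charDegree (ψ : L P → ℂ) = charDegree (ζ : P' → ℂ) *
          charDegree (infl P' θ : L P → ℂ) := by exact_mod_cast h1
      have h3 := PCDef.degree_infl P' hM htop hind.1 hbD hθ
      have h4 : charDegree (θ : L P ⧸ P' → ℂ) = charDegree (infl P' θ : L P → ℂ) := by
        rw [charDegree, charDegree, infl_apply, QuotientGroup.mk_one]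
      obtain ⟨χ0, hχ0, hc⟩ := H18.CharQuot.exists_over (L P) ψ.2
      let χ : IrrCharacter G := ⟨χ0, hχ0⟩
      have hχB : χ ∈ B := mem_of_over P hM hPp hind hψ χ hc
      have h5 := (height_zero_iff hM hB hχB).1 (hh χ hχB)
      have h6 := degree_over (p := p) (L P) hind.1 hψ (χ := χ) hc
      have h7 : (charDegree (ψ : L P → ℂ)).factorization p =
          (charDegree (ζ : P' → ℂ)).factorization p + (Nat.card (L P ⧸ P')).factorization p := by
        rw [h2, ← h4, Nat.factorization_mul (charDegree_ne_zero ζ) (charDegree_ne_zero θ),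
          Finsupp.add_apply, h3]
      have h8 := (pm_prime hM).factorization_pos_of_dvd (charDegree_ne_zero ζ) hdvd
      -- index bookkeeping
      have h9 : (L P).relIndex (stab (L P) b) * (stab (L P) b).index = (L P).index :=
        Subgroup.relIndex_mul_index (le_stab (L P) b)
      have h10 : P.relIndex (L P) * (L P).index = P.index :=
        Subgroup.relIndex_mul_index le_sup_left
      have h11 : Nat.card (L P ⧸ P') = P.relIndex (L P) := by
        rw [← Subgroup.index_eq_card]; rfl
      have h12 : (L P).index.factorization p = (stab (L P) b).index.factorization p := by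
        rw [← h9, Nat.factorization_mul (Fong.relIndex_ne_zero' _ _)
          Subgroup.index_ne_zero_of_finite, Finsupp.add_apply, hst, zero_add]
      have h13 : P.index.factorization p = (P.relIndex (L P)).factorization p +
          (L P).index.factorization p := by
        rw [← h10, Nat.factorization_mul (Fong.relIndex_ne_zero' _ _)
          Subgroup.index_ne_zero_of_finite, Finsupp.add_apply]
      rw [h11] at h7
      have h14 : (charDegree (χ : G → ℂ)).factorization p =
        (charDegree (χ0 : G → ℂ)).factorization p := rfl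
      omega
    -- commutativity
    intro a ha c hc
    let a' : P' := ⟨⟨a, (le_sup_left : P ≤ L P) ha⟩, Subgroup.mem_subgroupOf.2 ha⟩
    let c' : P' := ⟨⟨c, (le_sup_left : P ≤ L P) hc⟩, Subgroup.mem_subgroupOf.2 hc⟩
    letI := Fintype.ofFinite P'
    letI := Fintype.ofFinite (IrrCharacter P')
    have hk : ⁅a', c'⁆ ∈ commutator P' := Subgroup.commutator_mem_commutator (Subgroup.mem_top _) (Subgroup.mem_top _)
    have h1 := H18.CharInd.column_orthogonality (⁅a', c'⁆ : P') 1
    have h2 : ∑ χ : IrrCharacter P', (χ : P' → ℂ) ⁅a', c'⁆ * conj ((χ : P' → ℂ) 1) =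
        (Fintype.card (IrrCharacter P') : ℂ) := by
      rw [Finset.sum_congr rfl (fun χ _ => by
        rw [H81.CentralVal.linear_commutator (irr_char χ) (hlin χ) hk, hlin χ, map_one, mul_one]),
        Finset.sum_const, Finset.card_univ, nsmul_eq_mul, mul_one]
    rw [h2] at h1
    have h3 : Fintype.card (IrrCharacter P') ≠ 0 := by
      haveI : Nonempty (IrrCharacter P') := ⟨⟨fun _ => 1, H18.CharBasic.isIrrCharacter_one⟩⟩
      exact Fintype.card_ne_zero
    have h4 : IsConj ⁅a', c'⁆ 1 := by
      by_contra hno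
      rw [if_neg hno] at h1
      exact h3 (by exact_mod_cast h1)
    have h5 : ⁅a', c'⁆ = 1 := isConj_one_left.1 h4
    have h6 := commutatorElement_eq_one_iff_mul_comm.1 h5
    exact congrArg (fun x : P' => ((x : L P) : G)) h6

end main

end H20.Rey
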